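import Mathlib

set_option autoImplicit false
open Equiv Equiv.Perm Finset

namespace Cfsg.Agent.H4.KR

/-- all primes dividing the order are at most `m`. -/
def Sm {K : Type*} [Group K] (m : ℕ) (g : K) : Prop := ∀ q, q.Prime → q ∣ orderOf g → q ≤ m

theorem Sm.of_dvd {K L : Type*} [Group K] [Group L] {m : ℕ} {g : K} {h : L} (H : Sm m g)
    (hd : orderOf h ∣ orderOf g) : Sm m h := fun q hq h' => H q hq (h'.trans hd)

theorem lift_conj {K : Type*} [Group K] (N : Subgroup K) (y y' : K) (e o : ℕ)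
    (hn : ∀ n ∈ N, y * n * y⁻¹ ∈ N) (hc : ∀ a ∈ N, ∀ b ∈ N, a * b = b * a)
    (ho : ∀ n ∈ N, n ^ o = 1) (hy : y ^ e = 1) (hy' : y' ^ e = 1) (hco : e.Coprime o)
    (h : y' * y⁻¹ ∈ N) : ∃ m ∈ N, y' = m * y * m⁻¹ := by
  letI : CommGroup N := { (inferInstance : Group N) with
    mul_comm := fun a b => Subtype.ext (hc a a.2 b b.2) }
  let σ : N →* N := MonoidHom.mk' (fun a => ⟨y * a * y⁻¹, hn a a.2⟩) (by
    intro a b; apply Subtype.ext; simp only [Subgroup.coe_mul]; group)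
  have hσ : ∀ a : N, ((σ a : N) : K) = y * a * y⁻¹ := fun a => rfl
  have hm : ∀ i : ℕ, y' ^ i * (y ^ i)⁻¹ ∈ N := by
    intro i
    induction i with
    | zero => simp
    | succ i ih =>
      have : y' ^ (i + 1) * (y ^ (i + 1))⁻¹ = (y' * y⁻¹) * (y * (y' ^ i * (y ^ i)⁻¹) * y⁻¹) := by
        rw [pow_succ' y', pow_succ' y]; group
      rw [this]; exact N.mul_mem h (hn _ ih)
  let a : ℕ → N := fun i => ⟨_, hm i⟩
  let n : N := ⟨_, h⟩
  have ha : ∀ i, a (i + 1) = n * σ (a i) := by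
    intro i; apply Subtype.ext
    show y' ^ (i + 1) * (y ^ (i + 1))⁻¹ = (y' * y⁻¹) * (y * (y' ^ i * (y ^ i)⁻¹) * y⁻¹)
    rw [pow_succ' y', pow_succ' y]; group
  have h0 : a 0 = 1 := by apply Subtype.ext; simp [a]
  have he : a e = 1 := by apply Subtype.ext; simp [a, hy, hy']
  let b : N := ∏ i ∈ range e, a i
  have hb : b = n ^ e * σ b := by
    have h1 := prod_range_succ' a e
    rw [prod_range_succ, he, h0, mul_one, mul_one] at h1
    calc b = ∏ i ∈ range e, a (i + 1) := h1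
      _ = ∏ i ∈ range e, (n * σ (a i)) := prod_congr rfl fun i _ => ha i
      _ = n ^ e * σ b := by rw [prod_mul_distrib, prod_const, card_range, map_prod]
  have hno : orderOf n ∣ o := orderOf_dvd_of_pow_eq_one (Subtype.ext (ho _ h))
  obtain ⟨k, hk⟩ := exists_pow_eq_self_of_coprime (x := n) (hco.coprime_dvd_right hno)
  have hb2 : b ^ k = n * σ (b ^ k) := by
    conv_lhs => rw [hb]
    rw [mul_pow, hk, map_pow]
  refine ⟨(b ^ k : N), (b ^ k).2, ?_⟩
  have h3 := congrArg Subtype.val hb2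
  rw [Subgroup.coe_mul, hσ] at h3
  have h4 : ((n : N) : K) = y' * y⁻¹ := rfl
  rw [h4] at h3
  generalize ((b ^ k : N) : K) = m at h3
  calc y' = (y' * y⁻¹ * (y * m * y⁻¹)) * y * m⁻¹ := by group
    _ = m * y * m⁻¹ := by rw [← h3]

theorem split {K : Type*} [Group K] [Finite K] (g : K) (p : ℕ) (hp : p.Prime) :
    ∃ (u v : K) (a : ℕ), g = u * v ∧ u ∈ Subgroup.zpowers g ∧ v ∈ Subgroup.zpowers g ∧
      u ^ p ^ a = 1 ∧ ¬ p ∣ orderOf v := by
  obtain ⟨a, b, hb, ho⟩ := Nat.exists_eq_pow_mul_and_not_dvd (orderOf_pos g).ne' p hp.ne_one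
  have hco : (p ^ a).Coprime b := ((hp.coprime_iff_not_dvd).2 hb).pow_left a
  obtain ⟨k, h1, h2⟩ := Nat.chineseRemainder hco 1 0
  refine ⟨g ^ k, (g ^ k)⁻¹ * g, a, by group, Subgroup.pow_mem _ (Subgroup.mem_zpowers g) k,
    Subgroup.mul_mem _ (Subgroup.inv_mem _ (Subgroup.pow_mem _ (Subgroup.mem_zpowers g) k))
      (Subgroup.mem_zpowers g), ?_, ?_⟩
  · rw [← pow_mul]
    apply orderOf_dvd_iff_pow_eq_one.1
    rw [ho, mul_comm k]
    exact Nat.mul_dvd_mul_left _ ((Nat.modEq_zero_iff_dvd).1 h2)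
  · intro hd
    apply hb
    refine hd.trans (orderOf_dvd_of_pow_eq_one ?_)
    have hcm : Commute (g ^ k)⁻¹ g := ((Commute.refl g).pow_left k).inv_left
    rw [hcm.mul_pow, inv_pow, ← pow_mul]
    have : g ^ (k * b) = g ^ b := by
      apply pow_eq_pow_iff_modEq.2
      rw [ho]
      simpa using h1.mul_right' b
    rw [this, inv_mul_cancel]

/-- the set of cycles (fixed points included). -/
abbrev Q {Ω : Type} (x : Perm Ω) : Type := Quotient (SameCycle.setoid x)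

theorem cz {Ω : Type} {x y : Perm Ω} (h : y ∈ Subgroup.centralizer ({x} : Set (Perm Ω))) (i : ℤ)
    (a : Ω) : y ((x ^ i) a) = (x ^ i) (y a) := by
  have h1 : Commute x y := h x rfl
  have := (h1.zpow_left i).eq
  rw [← Perm.mul_apply, ← this, Perm.mul_apply]

instance act {Ω : Type} (x : Perm Ω) :
    MulAction (Subgroup.centralizer ({x} : Set (Perm Ω))) (Q x) where
  smul y q := Quotient.map (fun a => y.1 a) (by
    rintro a b ⟨i, rfl⟩
    exact ⟨i, (cz y.2 i a).symm⟩) q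
  one_smul q := Quotient.inductionOn q fun _ => rfl
  mul_smul _ _ q := Quotient.inductionOn q fun _ => rfl

/-- action of the centralizer on the cycles. -/
def ph {Ω : Type} (x : Perm Ω) : Subgroup.centralizer ({x} : Set (Perm Ω)) →* Perm (Q x) :=
  MulAction.toPermHom _ _

theorem ker_ph {Ω : Type} {x : Perm Ω} {y : Subgroup.centralizer ({x} : Set (Perm Ω))}
    (h : ph x y = 1) (a : Ω) : ∃ i : ℤ, y.1 a = (x ^ i) a := by
  have h1 : (Quotient.mk _ (y.1 a) : Q x) = Quotient.mk _ a := congrArg (fun f : Perm (Q x) => f (Quotient.mk _ a)) h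
  obtain ⟨i, hi⟩ := Quotient.exact h1.symm
  exact ⟨i, hi.symm⟩

/-- covering form of the class count. -/
def Cov (m : ℕ) (c : ℝ) : Prop :=
  ∀ (Ω : Type) [Finite Ω] (G : Subgroup (Perm Ω)), ∃ R : Finset (Perm Ω),
    (R.card : ℝ) ≤ c ^ Nat.card Ω ∧ ∀ g ∈ G, Sm m g → ∃ h ∈ G, h * g * h⁻¹ ∈ R

theorem fix_step {m : ℕ} {c : ℝ} (hc : Cov m c) {Ω : Type} [Finite Ω] (G : Subgroup (Perm Ω))
    (x : Perm Ω) (ho : ∀ q, q.Prime → q ∣ orderOf x → m < q) :
    ∃ R : Finset (Perm Ω), (R.card : ℝ) ≤ c ^ Nat.card (Q x) ∧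
      ∀ v ∈ G, x * v = v * x → Sm m v → ∃ h ∈ G, h * x = x * h ∧ h * v * h⁻¹ ∈ R := by
  classical
  let C := Subgroup.centralizer ({x} : Set (Perm Ω))
  let G' : Subgroup C := G.subgroupOf C
  obtain ⟨R, hR, hR2⟩ := hc (Q x) (G'.map (ph x))
  let li : Perm (Q x) → Perm Ω := fun r =>
    if h : ∃ y : C, y ∈ G' ∧ Sm m y ∧ ph x y = r then (h.choose : C) else 1
  refine ⟨R.image li, le_trans (by exact_mod_cast card_image_le) hR, ?_⟩
  intro v hv hxv hs
  let v' : C := ⟨v, by rintro _ rfl; exact hxv⟩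
  have hs' : Sm m v' := hs.of_dvd (by rw [← Subgroup.orderOf_coe])
  obtain ⟨_, ⟨h, hh, rfl⟩, hr⟩ := hR2 (ph x v') ⟨v', hv, rfl⟩ (hs'.of_dvd (orderOf_map_dvd _ _))
  rw [← map_inv, ← map_mul, ← map_mul] at hr
  set w := h * v' * h⁻¹ with hw
  have hwG : w ∈ G' := G'.mul_mem (G'.mul_mem hh hv) (G'.inv_mem hh)
  have hws : Sm m w := hs'.of_dvd (by
    rw [hw]; exact orderOf_dvd_of_pow_eq_one (by rw [conj_pow, pow_orderOf_eq_one]; simp))
  have hex : ∃ y : C, y ∈ G' ∧ Sm m y ∧ ph x y = ph x w := ⟨w, hwG, hws, rfl⟩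
  obtain ⟨hy1, hy2, hy3⟩ := hex.choose_spec
  have hli : li (ph x w) = (hex.choose : C) := dif_pos hex
  set y := hex.choose
  obtain ⟨n, hn, hy⟩ := lift_conj (G' ⊓ (ph x).ker) w y (orderOf w * orderOf y) (orderOf x)
    (fun n hn => ⟨G'.mul_mem (G'.mul_mem hwG hn.1) (G'.inv_mem hwG),
      (MonoidHom.normal_ker _).conj_mem n hn.2 w⟩)
    (by
      intro a ha b hb
      apply Subtype.ext
      ext t
      obtain ⟨i, hi⟩ := ker_ph ha.2 t
      obtain ⟨j, hj⟩ := ker_ph hb.2 t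
      show a.1 (b.1 t) = b.1 (a.1 t)
      rw [hj, hi, cz a.2, cz b.2, hi, hj, ← Perm.mul_apply, ← Perm.mul_apply, ← zpow_add,
        ← zpow_add, add_comm])
    (by
      intro a ha
      apply Subtype.ext
      ext t
      obtain ⟨i, hi⟩ := ker_ph ha.2 t
      have : ∀ k : ℕ, (a.1 ^ k) t = ((x ^ k) ^ i) t := by
        intro k
        induction k with
        | zero => simp
        | succ k ih =>
          rw [pow_succ', Perm.mul_apply, ih, ← zpow_natCast, ← zpow_mul, cz a.2, hi,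
            ← Perm.mul_apply, ← zpow_add, ← zpow_natCast, ← zpow_mul]
          congr 2; push_cast; ring
      show (a.1 ^ orderOf x) t = t
      rw [this, pow_orderOf_eq_one]; simp)
    (by rw [pow_mul, pow_orderOf_eq_one, one_pow])
    (by rw [mul_comm, pow_mul, pow_orderOf_eq_one, one_pow])
    (by
      apply Nat.coprime_of_dvd
      intro q hq h1 h2
      have := ho q hq h2
      rcases (Nat.Prime.dvd_mul hq).1 h1 with h1 | h1
      · have := hws q hq h1; omega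
      · have := hy2 q hq h1; omega)
    ⟨G'.mul_mem hy1 (G'.inv_mem hwG), by
      show ph x (y * w⁻¹) = 1
      rw [map_mul, map_inv, hy3, mul_inv_cancel]⟩
  refine ⟨(n * h : C), G'.mul_mem hn.1 hh, ((n * h).2 x rfl).symm, ?_⟩
  refine mem_image.2 ⟨_, hr, ?_⟩
  rw [hli, hy, hw]
  simp only [Subgroup.coe_mul, Subgroup.coe_inv, v']
  group

end Cfsg.Agent.H4.KR
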