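import Cfsg.Agent.H4.KR1

set_option autoImplicit false
open Equiv Equiv.Perm Finset

namespace Cfsg.Agent.H4.KR

theorem cyc_le {Ω : Type} [Fintype Ω] [DecidableEq Ω] {p : ℕ} (hp : p.Prime) (x : Perm Ω) {a : ℕ}
    (hx : x ^ p ^ a = 1) (k : ℕ) (hk : x.support.card = p * k) :
    Nat.card (Q x) ≤ (Fintype.card Ω - p * k) + k := by
  classical
  let f : Ω → Q x := Quotient.mk _
  have h1 : p * (x.support.image f).card ≤ x.support.card := by
    apply mul_card_image_le_card
    intro q hq
    obtain ⟨b, hb, rfl⟩ := mem_image.1 hq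
    have hb' : x b ≠ b := mem_support.1 hb
    have hcy := isCycle_cycleOf x hb'
    have hd : (x.cycleOf b).support.card ∣ p ^ a := by
      rw [← hcy.orderOf]
      exact (orderOf_cycleOf_dvd_orderOf x b).trans (orderOf_dvd_of_pow_eq_one hx)
    obtain ⟨j, -, hj⟩ := (Nat.dvd_prime_pow hp).1 hd
    have h2 := hcy.two_le_card_support
    have h3 : p ≤ (x.cycleOf b).support.card := by
      rw [hj] at h2 ⊢
      refine Nat.le_self_pow ?_ p
      rintro rfl; simp at h2
    refine h3.trans (card_le_card ?_)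
    intro t ht
    exact mem_filter.2 ⟨support_cycleOf_le x b ht,
      (Quotient.sound ((mem_support_cycleOf_iff' hb').1 ht)).symm⟩
  rw [hk] at h1
  have h2 : (x.support.image f).card ≤ k := Nat.le_of_mul_le_mul_left h1 hp.pos
  have h3 : (x.supportᶜ.image f).card ≤ Fintype.card Ω - p * k := by
    rw [← hk, ← card_compl]; exact card_image_le
  letI := Fintype.ofFinite (Q x)
  have h4 : (univ : Finset (Q x)) ⊆ x.supportᶜ.image f ∪ x.support.image f := by
    intro q _
    induction q using Quotient.inductionOn with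
    | h b =>
      by_cases hb : b ∈ x.support
      · exact mem_union_right _ (mem_image_of_mem f hb)
      · exact mem_union_left _ (mem_image_of_mem f (mem_compl.2 hb))
  rw [Nat.card_eq_fintype_card, ← card_univ]
  exact (card_le_card h4).trans ((card_union_le _ _).trans (Nat.add_le_add h3 h2))

theorem cnt_le {Ω : Type} [Fintype Ω] [DecidableEq Ω] {p : ℕ} (hp : p.Prime)
    (P : Subgroup (Perm Ω)) (hP : IsPGroup p P) (T : Finset Ω) (k : ℕ) (hk : T.card = p * k)
    (S : Finset P) (hS : ∀ x ∈ S, (x : Perm Ω).support ⊆ T) : S.card ≤ (2 * p) ^ k := by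
  classical
  haveI := Fact.mk hp
  let A : Subgroup (Perm Ω) := (ofSubtype : Perm {a // a ∈ T} →* Perm Ω).range
  have hA : Nat.card A ∣ (p * k).factorial := by
    have := Subgroup.card_range_dvd (ofSubtype : Perm {a // a ∈ T} →* Perm Ω)
    rwa [Nat.card_eq_fintype_card (α := Perm _), Fintype.card_perm, Fintype.card_coe, hk] at this
  obtain ⟨e, he⟩ := IsPGroup.iff_card.1 (hP.to_inf_left (K := A))
  have h1 : p ^ e ∣ (p * k).factorial :=
    he ▸ (Subgroup.card_dvd_of_le inf_le_right).trans hA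
  have h2 : e ≤ padicValNat p (p * k).factorial :=
    (padicValNat_dvd_iff_le (Nat.factorial_ne_zero _)).1 h1
  have h3 : (p - 1) * e ≤ p * k := by
    refine (Nat.mul_le_mul_left _ h2).trans ?_
    rw [sub_one_mul_padicValNat_factorial]; omega
  have h4 : p ^ e ≤ (2 * p) ^ k := by
    obtain ⟨q, rfl⟩ : ∃ q, p = q + 1 := ⟨p - 1, by have := hp.pos; omega⟩
    rw [Nat.add_sub_cancel] at h3
    rw [mul_pow]
    rcases le_total e k with h | h
    · exact (Nat.pow_le_pow_right (by omega) h).trans (Nat.le_mul_of_pos_left _ (by positivity))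
    · obtain ⟨j, rfl⟩ := Nat.exists_eq_add_of_le h
      rw [pow_add, mul_comm]
      apply Nat.mul_le_mul_right
      have h5 : q * j ≤ k := by nlinarith
      calc (q + 1) ^ j ≤ (2 ^ q) ^ j := Nat.pow_le_pow_left Nat.lt_two_pow_self j
        _ = 2 ^ (q * j) := by rw [pow_mul]
        _ ≤ 2 ^ k := Nat.pow_le_pow_right (by omega) h5
  refine le_trans ?_ (he ▸ h4)
  rw [← Nat.card_eq_finsetCard]
  refine Nat.card_le_card_of_injective (fun x : S => (⟨x.1.1, x.1.2, ?_⟩ : ↥(P ⊓ A))) ?_
  · exact mem_range_ofSubtype_iff.2 fun t ht => hS x.1 x.2 ht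
  · intro a b hab
    have h : ((a.1 : P) : Perm Ω) = b.1 := congrArg (fun z : ↥(P ⊓ A) => (z : Perm Ω)) hab
    exact Subtype.ext (Subtype.ext h)

theorem cls_dvd {Ω : Type} [Fintype Ω] [DecidableEq Ω] {p : ℕ} (hp : p.Prime)
    (P : Subgroup (Perm Ω)) (hP : IsPGroup p P) (H : Subgroup P) (hH : H ≠ ⊤)
    [DecidablePred fun a : Ω => MulAction.stabilizer P a = H] :
    p ∣ (univ.filter fun a : Ω => MulAction.stabilizer P a = H).card := by
  classical
  haveI := Fact.mk hp
  haveI := hP.isNilpotent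
  have hlt : H < Subgroup.normalizer (H : Set P) :=
    normalizerCondition_of_isNilpotent H (lt_top_iff_ne_top.2 hH)
  let N := Subgroup.normalizer (H : Set P)
  let X : SubMulAction N Ω :=
    { carrier := {a | MulAction.stabilizer P a = H}
      smul_mem' := by
        intro g a ha
        have ha' : MulAction.stabilizer P a = H := ha
        show MulAction.stabilizer P ((g : P) • a) = H
        ext t
        rw [MulAction.mem_stabilizer_iff, ← mul_smul]
        have := (Subgroup.mem_normalizer_iff''.1 g.2) t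
        rw [this, ← ha', MulAction.mem_stabilizer_iff, mul_smul, mul_smul, mul_smul, inv_smul_eq_iff] }
  have h1 := (hP.to_subgroup N).card_modEq_card_fixedPoints X
  have h2 : Nat.card (MulAction.fixedPoints N X) = 0 := by
    rw [Nat.card_eq_zero]; left
    constructor
    rintro ⟨⟨a, ha⟩, hf⟩
    have ha' : MulAction.stabilizer P a = H := ha
    apply hlt.not_ge
    intro g hg
    rw [← ha']
    exact congrArg Subtype.val (hf ⟨g, hg⟩)
  rw [h2] at h1
  have h3 : Nat.card X = (univ.filter fun a : Ω => MulAction.stabilizer P a = H).card := by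
    rw [← Nat.card_eq_finsetCard]
    exact Nat.card_congr (Equiv.subtypeEquivRight fun a => by
      rw [mem_filter]; exact ⟨fun h => ⟨mem_univ _, h⟩, fun h => h.2⟩)
  rw [← h3]
  exact (Nat.modEq_zero_iff_dvd).1 h1

theorem wsum {Ω : Type} [Finite Ω] {p : ℕ} (hp : p.Prime)
    (P : Subgroup (Perm Ω)) (hP : IsPGroup p P) [Fintype P] {c d : ℝ} (h1 : 1 ≤ c) (hcd : c ≤ d)
    (hd : 2 * p * c + c ^ p ≤ d ^ p) :
    ∑ x : P, c ^ Nat.card (Q (x : Perm Ω)) ≤ d ^ Nat.card Ω := by
  classical
  letI := Fintype.ofFinite Ω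
  have h0 : 0 ≤ c := by linarith
  let st : Ω → Subgroup P := fun a => MulAction.stabilizer P a
  let I : Finset (Subgroup P) := (univ.image st).erase ⊤
  let s : Subgroup P → ℕ := fun H => (univ.filter fun a => st a = H).card
  let t : Subgroup P → ℕ := fun H => s H / p
  have hst : ∀ H ∈ I, s H = p * t H := fun H hH =>
    (Nat.mul_div_cancel' (cls_dvd hp P hP H (ne_of_mem_erase hH))).symm
  have ht0 : ∀ H ∈ I, t H ≠ 0 := by
    intro H hH h
    have h2 := hst H hH
    rw [h, mul_zero] at h2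
    obtain ⟨a, -, ha⟩ := mem_image.1 (mem_of_mem_erase hH)
    exact (card_ne_zero.2 ⟨a, mem_filter.2 ⟨mem_univ _, ha⟩⟩) h2
  have hT : ∀ J ⊆ I, (univ.filter fun a => st a ∈ J).card = p * ∑ H ∈ J, t H := by
    intro J hJ
    rw [← sum_card_fiberwise_eq_card_filter, mul_sum]
    exact sum_congr rfl fun H hH => hst H (hJ hH)
  have hn : Fintype.card Ω = s ⊤ + p * ∑ H ∈ I, t H := by
    rw [← hT I Subset.rfl, ← card_univ, ← card_filter_add_card_filter_not (fun a => st a = ⊤)]
    congr 2
    ext a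
    simp [I]
  let J : P → Finset (Subgroup P) := fun x => I.filter (x ∉ ·)
  have hsup : ∀ x : P, (x : Perm Ω).support = univ.filter fun a => st a ∈ J x := by
    intro x
    ext a
    simp only [mem_support, mem_filter, mem_univ, true_and, J, I, mem_erase, mem_image]
    have e : x ∈ st a ↔ (x : Perm Ω) a = a := Iff.rfl
    constructor
    · intro h
      refine ⟨⟨fun h' => h (e.1 (h' ▸ Subgroup.mem_top x)), a, rfl⟩, fun h' => h (e.1 h')⟩
    · intro h h'
      exact h.2 (e.2 h')
  have hJ : ∀ x ∈ (univ : Finset P), J x ∈ I.powerset := fun x _ => mem_powerset.2 (filter_subset _ _)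
  rw [← sum_fiberwise_of_maps_to hJ, Nat.card_eq_fintype_card, hn]
  have key : ∀ K ∈ I.powerset, ∑ x ∈ univ.filter (fun x => J x = K), c ^ Nat.card (Q (x : Perm Ω)) ≤
      c ^ s ⊤ * ((∏ H ∈ K, (2 * p * c) ^ t H) * ∏ H ∈ I \ K, (c ^ p) ^ t H) := by
    intro K hK
    have hK' := mem_powerset.1 hK
    have e1 : ∑ H ∈ I, t H = ∑ H ∈ I \ K, t H + ∑ H ∈ K, t H := (sum_sdiff hK').symm
    have b1 : ∀ x ∈ univ.filter (fun x => J x = K), c ^ Nat.card (Q (x : Perm Ω)) ≤
        c ^ (s ⊤ + p * ∑ H ∈ I \ K, t H + ∑ H ∈ K, t H) := by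
      intro x hx
      have hx' := (mem_filter.1 hx).2
      obtain ⟨a, ha⟩ := hP x
      apply pow_le_pow_right₀ h1
      have := cyc_le hp (x : Perm Ω) (a := a) (by exact_mod_cast congrArg Subtype.val ha)
        (∑ H ∈ K, t H) (by rw [hsup, hx', hT K hK'])
      rw [hn, e1, mul_add] at this
      omega
    have b2 : (univ.filter (fun x => J x = K)).card ≤ (2 * p) ^ ∑ H ∈ K, t H :=
      cnt_le hp P hP _ _ (hT K hK') _ fun x hx => by rw [hsup, (mem_filter.1 hx).2]
    refine (sum_le_card_nsmul _ _ _ b1).trans ?_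
    rw [nsmul_eq_mul, prod_pow_eq_pow_sum, prod_pow_eq_pow_sum, ← pow_mul, mul_pow, pow_add, pow_add]
    have b3 : ((univ.filter (fun x => J x = K)).card : ℝ) ≤ (2 * p) ^ ∑ H ∈ K, t H := by
      exact_mod_cast b2
    calc _ ≤ (2 * (p : ℝ)) ^ (∑ H ∈ K, t H) * _ := mul_le_mul_of_nonneg_right b3 (by positivity)
      _ = _ := by ring
  refine (sum_le_sum key).trans ?_
  rw [← mul_sum, ← prod_add, pow_add, pow_mul, ← prod_pow_eq_pow_sum]
  refine mul_le_mul (pow_le_pow_left₀ h0 hcd _) (prod_le_prod (fun _ _ => by positivity) ?_)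
    (prod_nonneg fun _ _ => by positivity) (pow_nonneg (h0.trans hcd) _)
  intro H hH
  exact (pow_add_pow_le (by positivity) (by positivity) (ht0 H hH)).trans
    (pow_le_pow_left₀ (by positivity) hd _)

end Cfsg.Agent.H4.KR
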