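import Cfsg.Agent.H4.KR2

set_option autoImplicit false
open Equiv Equiv.Perm Finset

namespace Cfsg.Agent.H4.KR

theorem cov_one : Cov 1 1 := by
  intro Ω _ G
  refine ⟨{1}, by simp, fun g _ hs => ⟨1, G.one_mem, ?_⟩⟩
  have : orderOf g = 1 := by
    by_contra h
    obtain ⟨q, hq, hd⟩ := Nat.exists_prime_and_dvd h
    have := hs q hq hd
    have := hq.two_le
    omega
  rw [orderOf_eq_one_iff.1 this]; simp

theorem cov_step {m : ℕ} {c d : ℝ} (hc : Cov m c) (h1 : 1 ≤ c) (hcd : c ≤ d)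
    (hd : 2 * ((m + 1 : ℕ) : ℝ) * c + c ^ (m + 1) ≤ d ^ (m + 1)) : Cov (m + 1) d := by
  classical
  intro Ω _ G
  by_cases hp : (m + 1).Prime
  swap
  · obtain ⟨R, hR, h⟩ := hc Ω G
    refine ⟨R, hR.trans (pow_le_pow_left₀ (by linarith) hcd _), fun g hg hs => h g hg ?_⟩
    intro q hq hd
    have := hs q hq hd
    have : q ≠ m + 1 := by rintro rfl; exact hp hq
    omega
  haveI := Fact.mk hp
  let S : Sylow (m + 1) G := default
  let P : Subgroup (Perm Ω) := (S : Subgroup G).map G.subtype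
  have hP : IsPGroup (m + 1) P := S.isPGroup'.map _
  letI := Fintype.ofFinite P
  have hx : ∀ x : P, ∀ q, q.Prime → q ∣ orderOf (x : Perm Ω) → m < q := by
    intro x q hq hd
    obtain ⟨a, ha⟩ := hP x
    have h2 : (x : Perm Ω) ^ (m + 1) ^ a = 1 := by exact_mod_cast congrArg Subtype.val ha
    have := (Nat.prime_dvd_prime_iff_eq hq hp).1
      (hq.dvd_of_dvd_pow (hd.trans (orderOf_dvd_of_pow_eq_one h2)))
    omega
  choose R hR hR2 using fun x : P => fix_step hc G (x : Perm Ω) (hx x)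
  refine ⟨univ.biUnion fun x : P => (R x).image ((x : Perm Ω) * ·), ?_, ?_⟩
  · refine le_trans ?_ (wsum hp P hP h1 hcd hd)
    refine le_trans (Nat.cast_le.2 card_biUnion_le) ?_
    rw [Nat.cast_sum]
    exact sum_le_sum fun x _ => le_trans (Nat.cast_le.2 card_image_le) (hR x)
  · intro g hg hs
    obtain ⟨u, v, a, rfl, hu, hv, hua, hvo⟩ := split g (m + 1) hp
    have huG : u ∈ G := (Subgroup.zpowers_le.2 hg) hu
    have hvG : v ∈ G := (Subgroup.zpowers_le.2 hg) hv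
    have huv : u * v = v * u := by
      obtain ⟨i, hi⟩ := hu
      obtain ⟨j, hj⟩ := hv
      have := (Commute.refl (u * v)).zpow_zpow i j
      dsimp only at hi hj
      rw [hi, hj] at this
      exact this.eq
    have hvs : Sm m v := by
      intro q hq hd
      have := hs q hq (hd.trans (orderOf_dvd_of_mem_zpowers hv))
      have : q ≠ m + 1 := by rintro rfl; exact hvo hd
      omega
    have hz : IsPGroup (m + 1) (Subgroup.zpowers (⟨u, huG⟩ : G)) := by
      rintro ⟨_, i, rfl⟩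
      refine ⟨a, Subtype.ext (Subtype.ext ?_)⟩
      show (u ^ i) ^ (m + 1) ^ a = 1
      rw [← zpow_natCast, ← zpow_mul, mul_comm, zpow_mul, zpow_natCast, hua, one_zpow]
    obtain ⟨T, hT⟩ := hz.exists_le_sylow
    obtain ⟨h, hh⟩ := MulAction.exists_smul_eq G T S
    have hmem : h * ⟨u, huG⟩ * h⁻¹ ∈ (S : Subgroup G) := by
      rw [← hh, Sylow.coe_subgroup_smul]
      exact Subgroup.smul_mem_pointwise_smul _ (MulAut.conj h) _ (hT (Subgroup.mem_zpowers _))
    let x : P := ⟨h * u * (h : Perm Ω)⁻¹, _, hmem, rfl⟩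
    obtain ⟨k, hk, hkx, hr⟩ := hR2 x (h * v * (h : Perm Ω)⁻¹)
      (G.mul_mem (G.mul_mem h.2 hvG) (G.inv_mem h.2))
      (by
        show (h * u * (h : Perm Ω)⁻¹) * _ = _ * (h * u * (h : Perm Ω)⁻¹)
        calc _ = h * (u * v) * (h : Perm Ω)⁻¹ := by group
          _ = _ := by rw [huv]; group)
      (hvs.of_dvd (orderOf_dvd_of_pow_eq_one (by rw [conj_pow, pow_orderOf_eq_one]; simp)))
    refine ⟨k * h, G.mul_mem hk h.2, mem_biUnion.2 ⟨x, mem_univ _, mem_image.2 ⟨_, hr, ?_⟩⟩⟩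
    have hkx' : k * (h * u * (h : Perm Ω)⁻¹) = (h * u * (h : Perm Ω)⁻¹) * k := hkx
    show (h * u * (h : Perm Ω)⁻¹) * _ = _
    calc _ = ((h * u * (h : Perm Ω)⁻¹) * k) * (h * v * (h : Perm Ω)⁻¹) * k⁻¹ := by group
      _ = _ := by rw [← hkx']; group

theorem cov_all (m : ℕ) : Cov (m + 3) (4 - 1 / 2 ^ m) := by
  induction m with
  | zero =>
    exact cov_step (cov_step cov_one (d := 9 / 4) le_rfl (by norm_num) (by norm_num))
      (by norm_num) (by norm_num) (by norm_num)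
  | succ m ih =>
    have h1 : (1 : ℝ) / 2 ^ m ≤ 1 := by
      rw [div_le_one (by positivity)]; exact one_le_pow₀ (by norm_num)
    have h2 : (0 : ℝ) < 1 / 2 ^ (m + 1) := by positivity
    have e : (4 : ℝ) - 1 / 2 ^ (m + 1) = (4 - 1 / 2 ^ m) + 1 / 2 ^ (m + 1) := by
      field_simp; ring
    set c : ℝ := 4 - 1 / 2 ^ m
    have hc : 2 ≤ c := by linarith
    refine cov_step ih (by linarith) (by linarith) ?_
    rw [e]
    refine le_trans ?_ (pow_add_mul_le_add_pow (by linarith) (by linarith) _)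
    rw [add_comm, Nat.add_sub_cancel]
    have h3 : (2 : ℝ) ^ (m + 2) ≤ c ^ (m + 2) := pow_le_pow_left₀ (by norm_num) hc _
    have h4 : 2 * c ≤ c ^ (m + 3) * (1 / 2 ^ (m + 1)) := by
      calc 2 * c = 2 ^ (m + 2) * c * (1 / 2 ^ (m + 1)) := by field_simp; ring
        _ ≤ c ^ (m + 2) * c * (1 / 2 ^ (m + 1)) := by gcongr
        _ = _ := by ring
    have h5 : (0 : ℝ) ≤ ((m + 3 + 1 : ℕ) : ℝ) := Nat.cast_nonneg _
    nlinarith [mul_le_mul_of_nonneg_left h4 h5]

theorem classes_le {Ω : Type} [Finite Ω] (G : Subgroup (Perm Ω)) :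
    Nat.card (ConjClasses G) ≤ 4 ^ Nat.card Ω := by
  classical
  obtain ⟨R, hR, h⟩ := cov_all (Nat.card (Perm Ω)) Ω G
  have h1 : (R.card : ℝ) ≤ 4 ^ Nat.card Ω := by
    refine hR.trans (pow_le_pow_left₀ ?_ ?_ _)
    · have : (1 : ℝ) / 2 ^ Nat.card (Perm Ω) ≤ 1 := by
        rw [div_le_one (by positivity)]; exact one_le_pow₀ (by norm_num)
      linarith
    · have : (0 : ℝ) < 1 / 2 ^ Nat.card (Perm Ω) := by positivity
      linarith
  refine le_trans ?_ (by exact_mod_cast h1 : R.card ≤ 4 ^ Nat.card Ω)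
  rw [← Nat.card_eq_finsetCard]
  refine Nat.card_le_card_of_surjective
    (fun r : R => if h : r.1 ∈ G then ConjClasses.mk (⟨r.1, h⟩ : G) else 1) ?_
  intro C
  obtain ⟨g, rfl⟩ := ConjClasses.mk_surjective C
  obtain ⟨k, hk, hr⟩ := h g g.2 (fun q _ hd =>
    (Nat.le_of_dvd Nat.card_pos (hd.trans (orderOf_dvd_natCard _))).trans (by omega))
  have hm : k * g * k⁻¹ ∈ G := G.mul_mem (G.mul_mem hk g.2) (G.inv_mem hk)
  refine ⟨⟨_, hr⟩, (dif_pos hm).trans ?_⟩
  have hcj : IsConj g (⟨k * g * k⁻¹, hm⟩ : G) := isConj_iff.2 ⟨⟨k, hk⟩, rfl⟩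
  exact ConjClasses.mk_eq_mk_iff_isConj.2 hcj.symm

theorem main (d : ℕ) (G : Subgroup (Perm (Fin d))) : Nat.card (ConjClasses G) ≤ 5 ^ (d - 1) := by
  rcases le_or_gt d 7 with h | h
  · have h1 : Nat.card (ConjClasses G) ≤ Nat.card G :=
      Nat.card_le_card_of_surjective _ ConjClasses.mk_surjective
    have h2 : Nat.card G ≤ d.factorial := by
      have := Subgroup.card_le_card_group G
      rwa [Nat.card_eq_fintype_card (α := Perm _), Fintype.card_perm, Fintype.card_fin] at this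
    refine (h1.trans h2).trans ?_
    interval_cases d <;> decide
  · refine (classes_le G).trans ?_
    rw [Nat.card_eq_fintype_card, Fintype.card_fin]
    obtain ⟨k, rfl⟩ : ∃ k, d = k + 8 := ⟨d - 8, by omega⟩
    show 4 ^ (k + 8) ≤ 5 ^ (k + 7)
    rw [pow_add, pow_add]
    exact Nat.mul_le_mul (Nat.pow_le_pow_left (by norm_num) _) (by norm_num)

end Cfsg.Agent.H4.KR
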