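import Cfsg.Agent.H7.LS3
import Cfsg.Agent.H12.DicksonPSL
import Cfsg.Agent.H12.SmallRecog

/-! Subgroups of `SL₃` without transvections: set-up, eigenvalues, centralizers of involutions. -/

set_option autoImplicit false

namespace Cfsg.Agent.H4MN

open Matrix Subgroup Cfsg.Agent.H12
open scoped MatrixGroups

variable {G S K : Type*} [Group G] [Group S] [Field K]

/-- three by three matrices -/
abbrev M3 (K : Type*) := Matrix (Fin 3) (Fin 3) K

/-- a faithful unimodular representation without transvections, and the quotient by scalars -/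
structure St (ρ : G →* M3 K) (π : G →* S) : Prop where
  inj : Function.Injective ρ
  det : ∀ g, (ρ g).det = 1
  ntv : ∀ g, (ρ g - 1) * (ρ g - 1) = 0 → g = 1
  two : (2 : K) ≠ 0
  surj : Function.Surjective π
  ker : ∀ g, π g = 1 ↔ ∃ c : K, ρ g = c • 1

/-- change of basis -/
noncomputable def cjM (ρ : G →* M3 K) {B : M3 K} (hB : IsUnit B.det) : G →* M3 K where
  toFun g := B⁻¹ * ρ g * B
  map_one' := by simp [nonsing_inv_mul _ hB]
  map_mul' a b := by simp [Matrix.mul_assoc, mul_nonsing_inv_cancel_left _ _ hB]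

variable {ρ : G →* M3 K} {π : G →* S}

theorem cjM_eq {B M : M3 K} (hB : IsUnit B.det) {g : G} (h : ρ g * B = B * M) :
    cjM ρ hB g = M := by
  show B⁻¹ * ρ g * B = M
  rw [Matrix.mul_assoc, h, nonsing_inv_mul_cancel_left _ _ hB]

theorem mul_cjM {B : M3 K} (hB : IsUnit B.det) (g : G) : B * cjM ρ hB g * B⁻¹ = ρ g := by
  show B * (B⁻¹ * ρ g * B) * B⁻¹ = _
  simp [Matrix.mul_assoc, mul_nonsing_inv_cancel_left _ _ hB, mul_nonsing_inv _ hB]

namespace St
variable (h : St ρ π)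
include h

theorem conj {B : M3 K} (hB : IsUnit B.det) : St (cjM ρ hB) π := by
  refine ⟨fun a b e => h.inj (by rw [← mul_cjM hB, e, mul_cjM]), fun g => ?_, fun g e => h.ntv g ?_,
    h.two, h.surj, fun g => (h.ker g).trans ⟨fun ⟨c, e⟩ => ⟨c, cjM_eq hB (by simp [e])⟩,
      fun ⟨c, e⟩ => ⟨c, by rw [← mul_cjM hB, e]; simp [mul_nonsing_inv _ hB]⟩⟩⟩
  · have := h.det g
    rwa [← mul_cjM hB g, det_mul_right_comm, mul_nonsing_inv _ hB, Matrix.one_mul] at this
  · have : ρ g - 1 = B * (cjM ρ hB g - 1) * B⁻¹ := by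
      rw [Matrix.mul_sub, Matrix.sub_mul, mul_cjM, Matrix.mul_one, mul_nonsing_inv _ hB]
    rw [this, Matrix.mul_assoc, Matrix.mul_assoc, Matrix.mul_assoc,
      nonsing_inv_mul_cancel_left _ _ hB, ← Matrix.mul_assoc (_ - _), e]
    simp

theorem cube {g : G} (e : π g = 1) : g ^ 3 = 1 := by
  obtain ⟨c, e⟩ := (h.ker g).mp e
  have := h.det g
  rw [e, det_smul, det_one, mul_one, Fintype.card_fin] at this
  exact h.inj (by rw [map_pow, e, smul_pow, this]; simp)

theorem cent {g : G} (e : π g = 1) (a : G) : g * a = a * g := by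
  obtain ⟨c, e⟩ := (h.ker g).mp e
  exact h.inj (by simp [e])

theorem uniq {a c : G} {n : ℕ} (e : π a = π c) (ha : a ^ n = 1) (hc : c ^ n = 1) (hn : ¬ 3 ∣ n) :
    a = c := by
  have h1 : π (a * c⁻¹) = 1 := by simp [e]
  have h2 := (show Commute _ c from h.cent h1 c).mul_pow n
  rw [inv_mul_cancel_right, ha, hc, mul_one] at h2
  exact mul_inv_eq_one.mp (orderOf_eq_one_iff.mp (Nat.eq_one_of_dvd_coprimes
    ((Nat.Prime.coprime_iff_not_dvd Nat.prime_three).mpr hn)
    (orderOf_dvd_of_pow_eq_one (h.cube h1)) (orderOf_dvd_of_pow_eq_one h2.symm)))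

theorem lift {s : S} {n : ℕ} (hs : s ^ n = 1) (hn : ¬ 3 ∣ n) : ∃ g, π g = s ∧ g ^ n = 1 := by
  obtain ⟨g, rfl⟩ := h.surj s
  obtain ⟨m, hm⟩ := exists_pow_eq_self_of_coprime (x := π g) (n := 3)
    ((Nat.Prime.coprime_iff_not_dvd Nat.prime_three).mpr
      fun e => hn (e.trans (orderOf_dvd_of_pow_eq_one hs)))
  refine ⟨(g ^ 3) ^ m, by simpa using hm, ?_⟩
  rw [pow_right_comm, pow_right_comm g, h.cube (by rw [map_pow, hs]), one_pow]

theorem comm {a b : G} {n : ℕ} (e : π b * π a = π a * π b) (ha : a ^ n = 1) (hn : ¬ 3 ∣ n) :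
    b * a = a * b :=
  mul_inv_eq_iff_eq_mul.mp (h.uniq (by simp [e]) (by rw [conj_pow, ha]; simp) ha hn)

theorem eig [IsAlgClosed K] {A : Type*} [AddCommGroup A] (f : A → G)
    (hf : ∀ a b, f (a + b) = f a * f b) (σ : A →+ A) (hσ : Function.Surjective σ) {t : G}
    (ht : ∀ a, t * f a * t⁻¹ = f (σ a)) {n : ℕ} (hn : (n : K) ≠ 0) (hfn : ∀ a, f a ^ n = 1)
    (y : A) : f (σ (σ (σ (σ (σ y)) - y)) - (σ (σ (σ y)) - y)) = 1 := by
  by_contra hne
  let ρ' : G →* Module.End K (Fin 3 → K) := (Matrix.toLinAlgEquiv' (R := K)).toMonoidHom.comp ρ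
  obtain ⟨w, β, w0, hw, hβ⟩ := H7.LS.exists_eigen' ρ' f
    (fun a b => by rw [Commute, SemiconjBy, ← hf, ← hf, add_comm]) hn hfn
    (i₀ := σ (σ (σ (σ (σ y)) - y)) - (σ (σ (σ y)) - y))
    (fun e => hne (h.inj (Matrix.toLinAlgEquiv'.injective (e.trans (by rw [map_one, map_one])))))
  have hm : ∀ a b, β (a + b) = β a * β b := fun a b => smul_left_injective K w0 (by
    show β _ • w = _ • w
    rw [← hw, hf, map_mul, Module.End.mul_apply, hw b, map_smul, hw a, smul_smul, mul_comm])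
  have h0 : ∀ a, β a ≠ 0 := fun a e => w0 (by
    have := congrArg (ρ' (f a)⁻¹) (hw a)
    rwa [← Module.End.mul_apply, ← map_mul, inv_mul_cancel, map_one, e, zero_smul, map_zero] at this)
  have hs : ∀ a b, β a = β b → β (a - b) = 1 := fun a b e => mul_right_cancel₀ (h0 b) (by
    rw [← hm, sub_add_cancel, e, one_mul])
  have ht' : ∀ k a, t ^ k * f a * (t ^ k)⁻¹ = f (σ^[k] a) := fun k a => by
    induction k with
    | zero => simp
    | succ k ih => rw [Function.iterate_succ_apply', ← ht, ← ih, pow_succ']; group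
  have hl : ¬ Function.Injective fun (k : Fin 4) a => β (σ^[k] a) := fun hl => by
    have := (Fintype.linearIndependent_iff.2 fun c hc j => (smul_eq_zero.1 (H7.LS.eq_zero_of_sum
      (fun a => ρ' (f a)) hl Finset.univ (fun j => c j • ρ' (t ^ (j : ℕ))⁻¹ w) (fun j a => by
        rw [map_smul, smul_comm _ (c j), ← map_smul _ (β _), ← hw, ← ht', ← Module.End.mul_apply,
          ← Module.End.mul_apply, ← map_mul, ← map_mul]
        congr 3; group) hc j (Finset.mem_univ j))).resolve_right fun e => w0 (by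
          have := congrArg (ρ' (t ^ (j : ℕ))) e
          rwa [← Module.End.mul_apply, ← map_mul, mul_inv_cancel, map_one,
            map_zero] at this)).fintype_card_le_finrank
    simp at this
  have key : ∀ j k : Fin 4, j < k → (∀ a, β (σ^[j] a) = β (σ^[k] a)) → False := fun j k hjk e => by
    have e' : ∀ a, β (σ^[k - j] a) = β a := fun a => by
      obtain ⟨b, rfl⟩ := hσ.iterate j a
      rw [← Function.iterate_add_apply, Nat.sub_add_cancel hjk.le, e]
    have : (k : ℕ) - j = 1 ∨ (k : ℕ) - j = 2 ∨ (k : ℕ) - j = 3 := by omega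
    rcases this with e1 | e1 | e1 <;> rw [e1] at e'
    · exact hβ (hs _ _ ((e' _).trans (e' _)))
    · exact hβ (hs _ _ (e' _))
    · refine hβ (Eq.trans (congrArg β ?_) (hs _ _ (e' (σ (σ y) - y))))
      simp only [map_sub, Function.iterate_succ_apply', Function.iterate_zero_apply]
      abel
  refine hl fun j k e => ?_
  rcases lt_trichotomy j k with e1 | e1 | e1
  · exact (key j k e1 (congrFun e)).elim
  · exact e1
  · exact (key k j e1 (congrFun e.symm)).elim

theorem eig_pow [IsAlgClosed K] {r : ℕ} [Fact r.Prime] (hr : (r : K) ≠ 0) (h3 : r ≠ 3) {x t : S}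
    (hx : orderOf x = r) {k : ℕ} (hk : t * x * t⁻¹ = x ^ k) :
    ((k : ZMod r) ^ 2 - 1) * (k ^ 3 - 1) = 0 := by
  have hr' : r.Prime := Fact.out
  have h3' : ¬ 3 ∣ r := fun e => h3 ((Nat.prime_dvd_prime_iff_eq Nat.prime_three hr').mp e).symm
  obtain ⟨x, rfl, hx'⟩ := h.lift (hx ▸ pow_orderOf_eq_one x) h3'
  obtain ⟨t, rfl⟩ := h.surj t
  have x1 : x ≠ 1 := by rintro rfl; exact hr'.one_lt.ne (by simpa using hx)
  have ho : orderOf x = r := orderOf_eq_prime hx' x1
  have hk' : t * x * t⁻¹ = x ^ k := h.uniq (by simpa using hk) (by rw [conj_pow, hx']; simp)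
    (by rw [pow_right_comm, hx', one_pow]) h3'
  have hz : ∀ a : ℕ, x ^ (a : ZMod r).val = x ^ a := fun a => by
    rw [ZMod.val_natCast, ← ho, pow_mod_orderOf]
  have k0 : (k : ZMod r) ≠ 0 := fun e => x1 (by
    rw [← hz, e, ZMod.val_zero, pow_zero] at hk'; simpa using hk')
  have := h.eig (fun a : ZMod r => x ^ a.val) (fun a b => by rw [← pow_add, ← hz (_ + _)]; simp)
    (AddMonoidHom.mulLeft (k : ZMod r)) (fun a => ⟨(k : ZMod r)⁻¹ * a, by simp [k0]⟩)
    (fun a => by rw [← conj_pow, hk', ← pow_mul, ← hz (_ * _)]; simp) hr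
    (fun a => by rw [pow_right_comm, hx', one_pow]) 1
  rw [← orderOf_dvd_iff_pow_eq_one, ho, ← ZMod.natCast_eq_zero_iff, ZMod.natCast_zmod_val] at this
  simp only [AddMonoidHom.coe_mulLeft] at this
  linear_combination this

end St

/-- a cyclic subgroup of index at most two containing all elements of order greater than two -/
def Met (Q : Type*) [Group Q] : Prop :=
  ∃ a : Q, (∀ x y, x ∈ zpowers a ∨ y ∈ zpowers a ∨ x * y ∈ zpowers a) ∧
    ∀ x, x * x ≠ 1 → x ∈ zpowers a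

/-- common properties of `A₄`, `S₄`, `A₅` -/
def Exc (Q : Type*) [Group Q] : Prop :=
  (∀ v : Q, v * v = 1 → v ≠ 1 → ∀ d, d * v = v * d → d * d * (d * d) = 1) ∧
  (∀ x : Q, x * x * (x * x) = 1 → x * x ≠ 1 → (∃ g, g * x * g⁻¹ * x ≠ x * (g * x * g⁻¹)) ∧
    ∀ y, y * y * (y * y) = 1 → y * y ≠ 1 → x * y ≠ y * x → x * y * (x * y) * (x * y) = 1)

theorem Exc.of_equiv {Q R : Type*} [Group Q] [Group R] (e : Q ≃* R) (h : Exc R) : Exc Q := by
  refine ⟨fun v h1 h2 d h3 => e.injective ?_, fun x h1 h2 => ?_⟩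
  · simpa using h.1 (e v) (by rw [← map_mul, h1, map_one]) (by simpa using h2) (e d)
      (by rw [← map_mul, h3, map_mul])
  · obtain ⟨⟨g, hg⟩, h3⟩ := h.2 (e x) (by simpa using congrArg e h1)
      fun e' => h2 (e.injective (by simpa using e'))
    obtain ⟨g, rfl⟩ := e.surjective g
    refine ⟨⟨g, fun e' => hg (by simpa using congrArg e e')⟩, fun y y1 y2 y3 => e.injective ?_⟩
    simpa using h3 (e y) (by simpa using congrArg e y1)
      (fun e' => y2 (e.injective (by simpa using e'))) fun e' => y3 (e.injective (by simpa using e'))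

set_option synthInstance.maxSize 1000 in
theorem exc_alt4 : Exc (alternatingGroup (Fin 4)) := ⟨by decide +kernel, by decide +kernel⟩
set_option synthInstance.maxSize 1000 in
theorem exc_perm4 : Exc (Equiv.Perm (Fin 4)) := ⟨by decide +kernel, by decide +kernel⟩
set_option synthInstance.maxSize 1000 in
theorem exc_alt5 : Exc (alternatingGroup (Fin 5)) := ⟨by decide +kernel, by decide +kernel⟩

/-- block diagonal matrices -/
def Bd (i : Fin 3) (A : M3 K) : Prop := ∀ k, A i (i.succAbove k) = 0 ∧ A (i.succAbove k) i = 0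

/-- the two by two block -/
def blk (i : Fin 3) (A : M3 K) : Matrix (Fin 2) (Fin 2) K := A.submatrix i.succAbove i.succAbove

theorem Bd.mul {i : Fin 3} {A B : M3 K} (hA : Bd i A) (hB : Bd i B) : Bd i (A * B) ∧
    blk i (A * B) = blk i A * blk i B ∧ (A * B) i i = A i i * B i i := by
  refine ⟨fun k => ?_, ?_, ?_⟩
  · simp [mul_apply, Fin.sum_univ_succAbove _ i, (hA _).1, (hA _).2, (hB _).1, (hB _).2]
  · ext j k
    simp [blk, mul_apply, Fin.sum_univ_succAbove _ i, (hA _).2]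
  · simp [mul_apply, Fin.sum_univ_succAbove _ i, (hA _).1]

theorem Bd.ext {i : Fin 3} {A B : M3 K} (hA : Bd i A) (hB : Bd i B) (h1 : blk i A = blk i B)
    (h2 : A i i = B i i) : A = B := by
  ext j k
  induction j using i.succAboveCases <;> induction k using i.succAboveCases
  exacts [h2, (hA _).1.trans (hB _).1.symm, (hA _).2.trans (hB _).2.symm, congrFun₂ h1 _ _]

theorem bd_one (i : Fin 3) : Bd i (1 : M3 K) := fun k =>
  ⟨one_apply_ne (Fin.succAbove_ne i k).symm, one_apply_ne (Fin.succAbove_ne i k)⟩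

theorem blk_one (i : Fin 3) : blk i (1 : M3 K) = 1 :=
  submatrix_one _ Fin.succAbove_right_injective

variable [Finite G]

/-- the block diagonal subgroup -/
def HH (ρ : G →* M3 K) (i : Fin 3) : Subgroup G where
  carrier := {g | Bd i (ρ g)}
  one_mem' := by simpa using bd_one i
  mul_mem' ha hb := by simpa using (Bd.mul ha hb).1
  inv_mem' {g} hg := by
    have : ∀ n, Bd i (ρ (g ^ n)) := fun n => by
      induction n with
      | zero => simpa using bd_one i
      | succ n ih => rw [pow_succ, map_mul]; exact (ih.mul hg).1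
    rw [inv_eq_of_mul_eq_one_left (show g ^ (orderOf g - 1) * g = 1 by
      rw [← pow_succ, Nat.sub_add_cancel (orderOf_pos g), pow_orderOf_eq_one])]
    exact this _

/-- the action on the plane -/
def bH (ρ : G →* M3 K) (i : Fin 3) : HH ρ i →* Matrix (Fin 2) (Fin 2) K where
  toFun g := blk i (ρ g)
  map_one' := by simpa using blk_one i
  map_mul' a b := by simpa using (Bd.mul a.2 b.2).2.1

/-- the action on the projective line -/
def φ (ρ : G →* M3 K) (i : Fin 3) : HH ρ i →* PGL(2, K) :=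
  ProjGenLinGroup.mk.comp (bH ρ i).toHomUnits

theorem φ_eq_one {i : Fin 3} {g : HH ρ i} : φ ρ i g = 1 ↔ ∃ c : K, bH ρ i g = c • 1 := by
  rw [φ, MonoidHom.comp_apply, ProjGenLinGroup.mk_eq_one,
    GeneralLinearGroup.mem_center_iff_val_mem_range_scalar]
  exact exists_congr fun c => by rw [scalar_apply, ← smul_one_eq_diagonal, eq_comm]; rfl

theorem St.central (h : St ρ π) {i : Fin 3} {g : HH ρ i} (e : φ ρ i g = 1) (a : HH ρ i) :
    g * a = a * g := by
  obtain ⟨c, e⟩ := φ_eq_one.mp e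
  refine Subtype.ext (h.inj (Bd.ext (g * a).2 (a * g).2 ?_ ?_))
  · show bH ρ i (g * a) = bH ρ i (a * g)
    simp [e]
  · simp only [coe_mul, map_mul, (Bd.mul g.2 a.2).2.2, (Bd.mul a.2 g.2).2.2, mul_comm]

theorem St.no_unip (h : St ρ π) (p : ℕ) [hp : Fact p.Prime] [CharP K p] {i : Fin 3} {u : PGL(2, K)}
    (hu : u ∈ (φ ρ i).range) (h1 : u ^ p = 1) : u = 1 := by
  obtain ⟨g, rfl⟩ := hu
  by_contra hne
  obtain ⟨k, m, hm, e⟩ := Nat.exists_eq_pow_mul_and_not_dvd (orderOf_pos g).ne' p hp.out.ne_one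
  have h2 : (g ^ m) ^ p ^ k = 1 := by rw [← pow_mul, mul_comm, ← e, pow_orderOf_eq_one]
  refine hm (orderOf_eq_prime h1 hne ▸ orderOf_dvd_of_pow_eq_one ?_)
  rw [← map_pow]
  generalize g ^ m = a at h2
  have h3 : IsNilpotent (bH ρ i a - 1) := ⟨p ^ k, by
    rw [sub_pow_char_pow_of_commute _ _ (Commute.one_right _), ← map_pow, h2]; simp⟩
  have h4 : ∀ n, ρ (a ^ n : HH ρ i) i i = ρ a i i ^ n := fun n => by
    induction n with
    | zero => simp
    | succ n ih => rw [pow_succ, coe_mul, map_mul, (Bd.mul (a ^ n).2 a.2).2.2, ih, pow_succ]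
  have h5 : ρ a i i - 1 = 0 := pow_eq_zero_iff (pow_pos hp.out.pos k).ne' |>.mp (by
    rw [sub_pow_char_pow, ← h4, h2]; simp)
  have h6 := (isNilpotent_trace_of_isNilpotent h3).eq_zero
  have h7 : (bH ρ i a - 1).det = 0 := by
    obtain ⟨n, hn⟩ := h3
    exact eq_zero_of_pow_eq_zero (n := n) (by rw [← det_pow, hn, det_zero])
  have hb : Bd i (ρ a - 1) := fun k => by
    simp [(a.2 k).1, (a.2 k).2, (bd_one i k).1, (bd_one i k).2]
  rw [show a = 1 from Subtype.ext (h.ntv _ (Bd.ext (hb.mul hb).1 (fun _ => ⟨rfl, rfl⟩) ?_ ?_)),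
    map_one]
  · rw [(hb.mul hb).2.1, show blk i (ρ a - 1) = bH ρ i a - 1 by rw [← blk_one i]; rfl]
    generalize bH ρ i a - 1 = N at h6 h7
    rw [trace_fin_two] at h6
    rw [det_fin_two] at h7
    ext j k
    fin_cases j <;> fin_cases k <;> simp [blk, mul_apply, Fin.sum_univ_two]
    · linear_combination N 0 0 * h6 - h7
    · linear_combination N 0 1 * h6
    · linear_combination N 1 0 * h6
    · linear_combination N 1 1 * h6 - h7
  · rw [(hb.mul hb).2.2]; simp [h5]

theorem St.dk [IsAlgClosed K] (h : St ρ π) (p : ℕ) [hp : Fact p.Prime] [CharP K p] (i : Fin 3) :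
    Met (φ ρ i).range ∨ ((3 : K) ≠ 0 ∧ Exc (φ ρ i).range) := by
  haveI : Finite (φ ρ i).range := Finite.of_surjective _ (φ ρ i).rangeRestrict_surjective
  have hu : ∀ x, (φ ρ i).range ⊓ unip x = ⊥ := fun x => eq_bot_iff.mpr fun u hu =>
    h.no_unip p hu.1 ((mem_unip_iff p).mp hu.2).2
  have hd : ¬ p ∣ Nat.card (φ ρ i).range := fun hd => by
    obtain ⟨u, hu⟩ := exists_prime_orderOf_dvd_card' p hd
    rw [show u = 1 from Subtype.ext (h.no_unip p u.2 (by
      rw [← hu, ← coe_pow, pow_orderOf_eq_one]; rfl)), orderOf_one] at hu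
    exact hp.out.one_lt.ne hu
  rcases dickson_closed p (φ ρ i).range with ⟨x, -, e⟩ | ⟨⟨a, e⟩, -⟩ | ⟨a, s, e, -⟩ |
    ⟨hN, ⟨-, e⟩ | ⟨rfl, e⟩⟩ | ⟨x, e, -⟩
  · exact absurd (hu x) e
  · exact Or.inl ⟨a, fun x _ => Or.inl (e x), fun x _ => e x⟩
  · have hz : ∀ x : (φ ρ i).range, x.1 ∈ zpowers a → x ∈ zpowers (⟨a, e.left_mem⟩ : (φ ρ i).range) :=
      fun x ⟨k, hk⟩ => ⟨k, Subtype.ext hk⟩
    refine Or.inl ⟨⟨a, e.left_mem⟩, fun x y => ?_, fun x hx => hz x
      ((e.mem_zpowers_or x.2).resolve_right fun e => hx (Subtype.ext e))⟩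
    obtain ⟨k, hk | hk⟩ := e.mem_iff.mp x.2
    · exact Or.inl (hz x ⟨k, hk.symm⟩)
    obtain ⟨l, hl | hl⟩ := e.mem_iff.mp y.2
    · exact Or.inr (Or.inl (hz y ⟨l, hl.symm⟩))
    refine Or.inr (Or.inr (hz _ ⟨-k + l, ?_⟩))
    have : s * a ^ k * s⁻¹ = a⁻¹ ^ k := by rw [← conj_zpow, e.2.2.1]
    rw [inv_eq_of_mul_eq_one_left e.2.1] at this
    simp only [coe_mul, hk, hl, ← mul_assoc, this]
    group
  · refine Or.inr ⟨fun h3 => hd (((Nat.prime_dvd_prime_iff_eq hp.out Nat.prime_three).mp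
      ((CharP.cast_eq_zero_iff K p 3).mp (by exact_mod_cast h3))) ▸ by omega), ?_⟩
    rcases e with e | e | e
    exacts [exc_alt4.of_equiv (hN.equiv_alt4 e).some, exc_perm4.of_equiv (hN.equiv_perm4 e).some,
      exc_alt5.of_equiv (hN.equiv_alt5 e).some]
  · exact absurd (by rw [e]; norm_num) hd
  · rw [hu x] at e; simp at e

end Cfsg.Agent.H4MN
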